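import Cfsg.Agent.H826.Rg.Gen

/-!
# S3691, F-D+2: elements of `Ω(Q)` trivial on a nondegenerate subspace (helper826)

`U` nondegenerate, `dim U ≥ 5`: `g ∈ E Q`, `(g - 1) V ≤ U` imply that `g` is a product of Siegel transformations with vectors of `U`.
-/

set_option autoImplicit false
set_option linter.unusedSectionVars false

namespace Cfsg.Agent.H826.RgD

open QuadraticMap Module
open Cfsg.Agent.LieClassical.OrthCore Cfsg.Agent.LieClassical.OrthTrans
open Cfsg.Agent.LieClassical.OrthFinite (exists_sing_perp good_of_finite isometryEquiv isometryEquiv_apply)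
open Cfsg.Agent.H160.QSpin
open Cfsg.Agent.H826.Rg

variable {F V : Type*} [Field F] [AddCommGroup V] [Module F V] {Q : QuadraticForm F V}

/-- the isometries trivial on `V / U` -/
def StU (Q : QuadraticForm F V) (U : Submodule F V) : Subgroup (V ≃ₗ[F] V) where
  carrier := {g | g ∈ O Q ∧ ∀ v, g v - v ∈ U}
  mul_mem' {g h} hg hh := ⟨(O Q).mul_mem hg.1 hh.1, fun v => by
    have h1 : (g * h) v - v = (g (h v) - h v) + (h v - v) := by
      rw [sub_add_sub_cancel]; rfl
    rw [h1]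
    exact U.add_mem (hg.2 _) (hh.2 _)⟩
  one_mem' := ⟨(O Q).one_mem, fun v => by
    show v - v ∈ U
    rw [sub_self]; exact U.zero_mem⟩
  inv_mem' {g} hg := ⟨(O Q).inv_mem hg.1, fun v => by
    have h1 : g⁻¹ v - v = -(g (g.symm v) - g.symm v) := by
      rw [LinearEquiv.apply_symm_apply, neg_sub]; rfl
    rw [h1]
    exact U.neg_mem (hg.2 _)⟩

/-- the group generated by the Siegel transformations of `U` -/
def SgU (Q : QuadraticForm F V) (U : Submodule F V) : Subgroup (V ≃ₗ[F] V) :=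
  Subgroup.closure {g | ∃ (u w : V) (hu : Q u = 0) (hw : polar Q u w = 0), u ∈ U ∧ w ∈ U ∧ g = siegel Q u w hu hw}

variable {U : Submodule F V}

theorem siegel_mem_StU {u w : V} (hu : Q u = 0) (hw : polar Q u w = 0) (huU : u ∈ U) (hwU : w ∈ U) :
    siegel Q u w hu hw ∈ StU Q U := by
  refine ⟨siegel_mem_O hu hw, fun v => ?_⟩
  have h1 : siegel Q u w hu hw v - v =
      polar Q u v • w - (polar Q w v + Q w * polar Q u v) • u := by
    rw [siegel_apply]
    module
  rw [h1]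
  exact U.sub_mem (U.smul_mem _ hwU) (U.smul_mem _ huU)

theorem refl_mem_StU {a : V} (ha : Q a ≠ 0) (haU : a ∈ U) : refl Q a ha ∈ StU Q U := by
  refine ⟨refl_mem_O ha, fun v => ?_⟩
  rw [refl_apply, sub_sub_cancel_left]
  exact U.neg_mem (U.smul_mem _ haU)

theorem siegel_mem_SgU {u w : V} (hu : Q u = 0) (hw : polar Q u w = 0) (huU : u ∈ U) (hwU : w ∈ U) :
    siegel Q u w hu hw ∈ SgU Q U := Subgroup.subset_closure ⟨u, w, hu, hw, huU, hwU, rfl⟩

theorem SgU_le {H : Subgroup (V ≃ₗ[F] V)} (h : ∀ (u w : V) (hu : Q u = 0) (hw : polar Q u w = 0), u ∈ U → w ∈ U →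
    siegel Q u w hu hw ∈ H) : SgU Q U ≤ H := by
  rw [SgU, Subgroup.closure_le]
  rintro _ ⟨u, w, hu, hw, huv, hwv, rfl⟩
  exact h u w hu hw huv hwv

theorem SgU_le_StU : SgU Q U ≤ StU Q U := SgU_le fun _ _ hu hw huv hwv => siegel_mem_StU hu hw huv hwv

theorem SgU_le_E : SgU Q U ≤ E Q := SgU_le fun _ _ hu hw _ _ => siegel_mem_E hu hw

theorem StU_map {g : V ≃ₗ[F] V} (hg : g ∈ StU Q U) {u : V} (hu : u ∈ U) : g u ∈ U := by
  have := U.add_mem (hg.2 u) hu
  rwa [sub_add_cancel] at this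

theorem conj_mem_SgU {g h : V ≃ₗ[F] V} (hg : g ∈ StU Q U) (hh : h ∈ SgU Q U) : g * h * g⁻¹ ∈ SgU Q U := by
  induction hh using Subgroup.closure_induction with
  | mem x hx =>
    obtain ⟨u, w, hu, hw, huv, hwv, rfl⟩ := hx
    have hu' : Q (g u) = 0 := by rw [mem_O.1 hg.1]; exact hu
    have hw' : polar Q (g u) (g w) = 0 := by rw [polar_map hg.1]; exact hw
    rw [siegel_conj hg.1 hu hw hu' hw']
    exact siegel_mem_SgU hu' hw' (StU_map hg huv) (StU_map hg hwv)
  | one => simp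
  | mul x y _ _ hx hy =>
    have : g * (x * y) * g⁻¹ = (g * x * g⁻¹) * (g * y * g⁻¹) := by group
    rw [this]
    exact (SgU Q U).mul_mem hx hy
  | inv x _ hx =>
    have : g * x⁻¹ * g⁻¹ = (g * x * g⁻¹)⁻¹ := by group
    rw [this]
    exact (SgU Q U).inv_mem hx

/-- `SgU` in `StU` -/
def SNU (Q : QuadraticForm F V) (U : Submodule F V) : Subgroup (StU Q U) := (SgU Q U).subgroupOf (StU Q U)

instance : (SNU Q U).Normal := ⟨fun n hn g => by
  rw [SNU, Subgroup.mem_subgroupOf] at hn ⊢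
  exact conj_mem_SgU g.2 hn⟩

/-- the class modulo `SgU` -/
def clsU : StU Q U →* (StU Q U) ⧸ (SNU Q U) := QuotientGroup.mk' _

theorem clsU_eq_one {g : StU Q U} : clsU g = 1 ↔ (g : V ≃ₗ[F] V) ∈ SgU Q U := by
  rw [clsU, QuotientGroup.mk'_apply, QuotientGroup.eq_one_iff, SNU, Subgroup.mem_subgroupOf]

/-- conjugate reflections have the same class -/
theorem clsU_refl_eq {a b : V} (ha : Q a ≠ 0) (hb : Q b ≠ 0) (hav : a ∈ U) (hbv : b ∈ U)
    {s : V ≃ₗ[F] V} (hs : s ∈ SgU Q U) (hsb : s b = a) :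
    clsU (⟨refl Q a ha, refl_mem_StU ha hav⟩ : StU Q U) = clsU (⟨refl Q b hb, refl_mem_StU hb hbv⟩ : StU Q U) := by
  subst hsb
  have hs' := SgU_le_StU hs
  have h1 : (⟨refl Q (s b) ha, refl_mem_StU ha hav⟩ : StU Q U) =
      ⟨s, hs'⟩ * ⟨refl Q b hb, refl_mem_StU hb hbv⟩ * ⟨s, hs'⟩⁻¹ := by
    apply Subtype.ext
    show refl Q (s b) ha = s * refl Q b hb * s⁻¹
    rw [refl_conj hs'.1 hb ha]
  have h2 : clsU (⟨s, hs'⟩ : StU Q U) = 1 := clsU_eq_one.2 hs
  rw [h1, map_mul, map_mul, map_inv, h2, one_mul, inv_one, mul_one]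

theorem clsU_refl_sq {a : V} (ha : Q a ≠ 0) (hav : a ∈ U) :
    clsU (⟨refl Q a ha, refl_mem_StU ha hav⟩ : StU Q U) * clsU (⟨refl Q a ha, refl_mem_StU ha hav⟩ : StU Q U) = 1 := by
  rw [← map_mul]
  have h1 : (⟨refl Q a ha, refl_mem_StU ha hav⟩ * ⟨refl Q a ha, refl_mem_StU ha hav⟩ : StU Q U) = 1 :=
    Subtype.ext (refl_mul_self ha)
  rw [h1, map_one]

section fin

variable [Finite F] [FiniteDimensional F V] (hQ : Nondeg Q)
include hQ

/-- the classes, if the classes of the reflections are `α` and `β` -/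
theorem classU_cases {α β : (StU Q U) ⧸ (SNU Q U)} (hα : α * α = 1) (hβ : β * β = 1) (hαβ : Commute α β)
    (hr : ∀ (a : V) (ha : Q a ≠ 0) (hav : a ∈ U),
      clsU (⟨refl Q a ha, refl_mem_StU ha hav⟩ : StU Q U) = α ∨ clsU (⟨refl Q a ha, refl_mem_StU ha hav⟩ : StU Q U) = β)
    (g : StU Q U) : ∃ i j : ℕ, clsU g = α ^ i * β ^ j := by
  have key : ∀ g ∈ Subgroup.closure (genSet Q U), ∀ hg : g ∈ StU Q U,
      ∃ i j : ℕ, clsU (⟨g, hg⟩ : StU Q U) = α ^ i * β ^ j := by
    have hle : Subgroup.closure (genSet Q U) ≤ StU Q U := by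
      rw [Subgroup.closure_le]
      rintro _ (⟨a, ha, haU, rfl⟩ | ⟨u, w, hu, hw, huU, hwU, rfl⟩)
      · exact refl_mem_StU ha haU
      · exact siegel_mem_StU hu hw huU hwU
    intro g hgc
    induction hgc using Subgroup.closure_induction with
    | mem x hx =>
      intro hx'
      rcases hx with ⟨a, ha, haU, rfl⟩ | ⟨u, w, hu, hw, huU, hwU, rfl⟩
      · rcases hr a ha haU with h | h
        · exact ⟨1, 0, by rw [pow_one, pow_zero, mul_one]; exact h⟩
        · exact ⟨0, 1, by rw [pow_one, pow_zero, one_mul]; exact h⟩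
      · refine ⟨0, 0, ?_⟩
        rw [pow_zero, pow_zero, mul_one, clsU_eq_one]
        exact siegel_mem_SgU hu hw huU hwU
    | one =>
      intro h1
      exact ⟨0, 0, by rw [pow_zero, pow_zero, mul_one]; exact map_one _⟩
    | mul x y hx hy ihx ihy =>
      intro hxy
      obtain ⟨i, j, h1⟩ := ihx (hle hx)
      obtain ⟨i', j', h3⟩ := ihy (hle hy)
      refine ⟨i + i', j + j', ?_⟩
      have : (⟨x * y, hxy⟩ : StU Q U) = ⟨x, hle hx⟩ * ⟨y, hle hy⟩ := rfl
      have h5 : β ^ j * α ^ i' = α ^ i' * β ^ j := (hαβ.pow_pow i' j).eq.symm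
      rw [this, map_mul, h1, h3, pow_add, pow_add, mul_assoc, ← mul_assoc (β ^ j), h5]
      group
    | inv x hx ihx =>
      intro hxi
      obtain ⟨i, j, h1⟩ := ihx (hle hx)
      refine ⟨i, j, ?_⟩
      have : (⟨x⁻¹, hxi⟩ : StU Q U) = ⟨x, hle hx⟩⁻¹ := rfl
      rw [this, map_inv, h1, mul_inv_rev, ← inv_pow, ← inv_pow, inv_eq_of_mul_eq_one_left hα, inv_eq_of_mul_eq_one_left hβ]
      exact (hαβ.pow_pow i j).eq.symm
  exact key g (mem_closure_of_res hQ U g.2.1 g.2.2) g.2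

variable (hU : Nondeg (Q.comp U.subtype)) (h5 : 5 ≤ finrank F U)
include hU h5

/-- `SgU` is transitive on the vectors of given norm of `U` -/
theorem trans_U {a b : V} (ha : a ≠ 0) (hb : b ≠ 0) (haU : a ∈ U) (hbU : b ∈ U)
    (h : Q a = Q b) : ∃ s ∈ SgU Q U, s b = a := by
  let QU : QuadraticForm F U := Q.comp U.subtype
  have hG : Good QU := good_of_finite hU h5
  have hext : ∀ e ∈ E QU, ∃ s ∈ SgU Q U, ∀ x : U, s x = e x := by
    intro e he
    induction he using Subgroup.closure_induction with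
    | mem x hx =>
      obtain ⟨u, w, hu, hw, rfl⟩ := hx
      have hu' : Q (u : V) = 0 := hu
      have hw' : polar Q (u : V) (w : V) = 0 := hw
      refine ⟨siegel Q (u : V) (w : V) hu' hw', siegel_mem_SgU _ _ u.2 w.2, fun x => ?_⟩
      rw [siegel_apply, siegel_apply]
      rfl
    | one => exact ⟨1, (SgU Q U).one_mem, fun x => rfl⟩
    | mul x y _ _ hx hy =>
      obtain ⟨s, hs, hs'⟩ := hx
      obtain ⟨t, ht, ht'⟩ := hy
      refine ⟨s * t, (SgU Q U).mul_mem hs ht, fun z => ?_⟩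
      show s (t z) = x (y z)
      rw [ht', hs']
    | inv x _ hx =>
      obtain ⟨s, hs, hs'⟩ := hx
      refine ⟨s⁻¹, (SgU Q U).inv_mem hs, fun z => ?_⟩
      show s.symm z = x.symm z
      rw [LinearEquiv.symm_apply_eq, hs', LinearEquiv.apply_symm_apply]
  obtain ⟨e, he, hea⟩ := hG.trans_norm (v := (⟨b, hbU⟩ : U)) (v' := (⟨a, haU⟩ : U))
    (fun h0 => hb (congrArg Subtype.val h0)) (fun h0 => ha (congrArg Subtype.val h0)) h.symm
  obtain ⟨s, hs, hs'⟩ := hext e he
  exact ⟨s, hs, by rw [hs' ⟨b, hbU⟩, hea]⟩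

/-- reflections of vectors of the same norm up to squares -/
theorem clsU_refl_class {a b : V} (ha : Q a ≠ 0) (hb : Q b ≠ 0) (haU : a ∈ U)
    (hbU : b ∈ U) (h : IsSquare (Q a * (Q b)⁻¹)) :
    clsU (⟨refl Q a ha, refl_mem_StU ha haU⟩ : StU Q U) = clsU (⟨refl Q b hb, refl_mem_StU hb hbU⟩ : StU Q U) := by
  obtain ⟨c, hc⟩ := h
  have hc0 : c ≠ 0 := by
    rintro rfl
    rw [mul_zero, mul_eq_zero, inv_eq_zero] at hc
    rcases hc with h | h
    · exact ha h
    · exact hb h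
  have h3 : Q (c • b) = Q a := by
    rw [QuadraticMap.map_smul, smul_eq_mul, ← hc, mul_assoc, inv_mul_cancel₀ hb, mul_one]
  have h4 : Q (c • b) ≠ 0 := by rw [h3]; exact ha
  have h5' : c • b ∈ U := U.smul_mem _ hbU
  obtain ⟨s, hs, hsb⟩ := trans_U hQ hU h5 (fun h0 => ha (by rw [h0, QuadraticMap.map_zero]))
    (fun h0 => h4 (by rw [h0, QuadraticMap.map_zero])) haU h5' h3.symm
  rw [clsU_refl_eq ha h4 haU h5' hs hsb]
  congr 1
  apply Subtype.ext
  exact refl_smul hb hc0 h4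

/-- two orthogonal vectors of given norms in `U` -/
theorem exists_two (c d : F) : ∃ a b : V, a ∈ U ∧ b ∈ U ∧ Q a = c ∧ Q b = d ∧ polar Q a b = 0 := by
  have hG : Good (Q.comp U.subtype) := good_of_finite hU h5
  obtain ⟨x, y, hxy⟩ := hG.exists_hyp
  obtain ⟨z, w, hzw, hxz, hxw, hyz, hyw⟩ := hG.exists_hyp2 hxy
  have e1 : ∀ s t : U, (Q.comp U.subtype) s = Q (s : V) := fun _ _ => rfl
  have hx : Q (x : V) = 0 := hxy.left
  have hy : Q (y : V) = 0 := hxy.right
  have hp : polar Q (x : V) (y : V) = 1 := hxy.pair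
  have hz : Q (z : V) = 0 := hzw.left
  have hw : Q (w : V) = 0 := hzw.right
  have hp' : polar Q (z : V) (w : V) = 1 := hzw.pair
  have h1 : polar Q (x : V) (z : V) = 0 := hxz
  have h2 : polar Q (x : V) (w : V) = 0 := hxw
  have h3 : polar Q (y : V) (z : V) = 0 := hyz
  have h4 : polar Q (y : V) (w : V) = 0 := hyw
  refine ⟨(x : V) + c • (y : V), (z : V) + d • (w : V), U.add_mem x.2 (U.smul_mem _ y.2), U.add_mem z.2 (U.smul_mem _ w.2), ?_, ?_, ?_⟩
  · rw [Q_add, QuadraticMap.map_smul, hx, hy, polar_smul_right, hp]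
    simp
  · rw [Q_add, QuadraticMap.map_smul, hz, hw, polar_smul_right, hp']
    simp
  · rw [polar_add_left, polar_add_right, polar_add_right, polar_smul_right, polar_smul_right, polar_smul_left, polar_smul_left, h1, h2, h3, h4]
    simp

/-- **elements of `Ω(Q)` trivial on `V / U`** -/
theorem mem_SgU {g : V ≃ₗ[F] V} (hg : g ∈ E Q) (hgU : ∀ v, g v - v ∈ U) : g ∈ SgU Q U := by
  classical
  have hgS : g ∈ StU Q U := ⟨E_le_O hg, hgU⟩
  have hV5 : 5 ≤ finrank F V := h5.trans (Submodule.finrank_le U)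
  have hG : Good Q := good_of_finite hQ hV5
  by_cases h2 : (2 : F) = 0
  · -- characteristic two
    obtain ⟨a, -, haU, -, hQa, -, -⟩ := exists_two hQ hU h5 1 1
    have ha : Q a ≠ 0 := by rw [hQa]; exact one_ne_zero
    set ρ := clsU (⟨refl Q a ha, refl_mem_StU ha haU⟩ : StU Q U) with hρ
    have hρ2 : ρ * ρ = 1 := clsU_refl_sq ha haU
    obtain ⟨i, j, hij⟩ := classU_cases hQ hρ2 hρ2 (Commute.refl ρ) (fun b hb hbU => Or.inl (by
      obtain ⟨c, hc⟩ := Cfsg.Agent.ClassicalGeometry.OrthDickson.exists_sq_of_two h2 (Q b * (Q a)⁻¹)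
      exact clsU_refl_class hQ hU h5 hb ha hbU haU ⟨c, hc.symm⟩)) ⟨g, hgS⟩
    rw [← pow_add] at hij
    rcases Nat.even_or_odd (i + j) with he | ho
    · obtain ⟨k, hk⟩ := he
      rw [hk, ← two_mul, pow_mul, pow_two, hρ2, one_pow] at hij
      exact clsU_eq_one.1 hij
    · exfalso
      obtain ⟨k, hk⟩ := ho
      rw [hk, pow_succ, pow_mul, pow_two, hρ2, one_pow, one_mul] at hij
      have h3 : clsU ((⟨refl Q a ha, refl_mem_StU ha haU⟩ : StU Q U) * (⟨g, hgS⟩ : StU Q U)⁻¹) = 1 := by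
        rw [map_mul, map_inv, hij, ← hρ, mul_inv_cancel]
      rw [clsU_eq_one] at h3
      have h4 : refl Q a ha * g⁻¹ ∈ ⁅O Q, O Q⁆ := by
        rw [hG.commutator_eq_E]
        exact SgU_le_E h3
      apply refl_notMem hQ ha (by omega : finrank F V ≠ 4)
      have h5 : refl Q a ha = (refl Q a ha * g⁻¹) * g := by group
      rw [h5]
      refine Subgroup.mul_mem _ h4 ?_
      rw [hG.commutator_eq_E]; exact hg
  · -- odd characteristic
    have hfV : Finite V := Module.finite_of_finite F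
    have hchar : ringChar F ≠ 2 := by
      intro h
      apply h2
      have := ringChar.Nat.cast_ringChar (R := F)
      rw [h] at this
      exact_mod_cast this
    obtain ⟨ν, hν⟩ := FiniteField.exists_nonsquare (F := F) hchar
    have hν0 : ν ≠ 0 := by
      rintro rfl
      exact hν ⟨0, by rw [mul_zero]⟩
    obtain ⟨a, b, haU, hbU, hna, hnb, hab⟩ := exists_two hQ hU h5 1 ν
    have ha : Q a ≠ 0 := by rw [hna]; exact one_ne_zero
    have hb : Q b ≠ 0 := by rw [hnb]; exact hν0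
    set α := clsU (⟨refl Q _ ha, refl_mem_StU ha haU⟩ : StU Q U) with hα
    set β := clsU (⟨refl Q _ hb, refl_mem_StU hb hbU⟩ : StU Q U) with hβ
    have hαβ : Commute α β := by
      show α * β = β * α
      rw [hα, hβ, ← map_mul, ← map_mul]
      congr 1
      exact Subtype.ext (refl_comm ha hb hab)
    obtain ⟨i, j, hij⟩ := classU_cases hQ (α := α) (β := β) (clsU_refl_sq ha haU) (clsU_refl_sq hb hbU) hαβ (by
      intro c hc hcU
      by_cases hsq : IsSquare (Q c)
      · left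
        refine clsU_refl_class hQ hU h5 hc ha hcU haU ?_
        rw [hna, inv_one, mul_one]
        exact hsq
      · right
        refine clsU_refl_class hQ hU h5 hc hb hcU hbU ?_
        rw [hnb]
        exact Cfsg.Agent.ClassicalGeometry.Universal.isSquare_mul_of_not h2 hsq (by rwa [isSquare_inv])) ⟨g, hgS⟩
    set ra : V ≃ₗ[F] V := refl Q _ ha with hra
    set rb : V ≃ₗ[F] V := refl Q _ hb with hrb
    have hE : ra ^ i * rb ^ j ∈ ⁅O Q, O Q⁆ := by
      have h3 : clsU ((⟨refl Q _ ha, refl_mem_StU ha haU⟩ : StU Q U) ^ i *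
          (⟨refl Q _ hb, refl_mem_StU hb hbU⟩ : StU Q U) ^ j * (⟨g, hgS⟩ : StU Q U)⁻¹) = 1 := by
        rw [map_mul, map_mul, map_pow, map_pow, map_inv, hij, ← hα, ← hβ, mul_inv_cancel]
      rw [clsU_eq_one] at h3
      have h4 : ra ^ i * rb ^ j * g⁻¹ ∈ ⁅O Q, O Q⁆ := by
        rw [hG.commutator_eq_E]
        exact SgU_le_E h3
      have h5 : ra ^ i * rb ^ j = (ra ^ i * rb ^ j * g⁻¹) * g := by group
      rw [h5]
      refine Subgroup.mul_mem _ h4 ?_
      rw [hG.commutator_eq_E]; exact hg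
    have hraO : ra ∈ O Q := refl_mem_O ha
    have hrbO : rb ∈ O Q := refl_mem_O hb
    have hO : ra ^ i * rb ^ j ∈ O Q := (O Q).mul_mem ((O Q).pow_mem hraO i) ((O Q).pow_mem hrbO j)
    have e1 : (⟨ra ^ i * rb ^ j, hO⟩ : O Q) = (⟨ra, hraO⟩ : O Q) ^ i * (⟨rb, hrbO⟩ : O Q) ^ j := rfl
    have hi : (-1 : ℤˣ) ^ i = 1 := by
      have h3 := hom_comm (spin Q) hE hO
      rw [e1, map_mul, map_pow, map_pow, spin_refl h2 ha, spin_refl h2 hb, hna, hnb, if_pos ⟨1, by rw [mul_one]⟩, if_neg hν,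
        one_pow, mul_one] at h3
      exact h3
    have hj : (-1 : Fˣ) ^ (i + j) = 1 := by
      have h3 := hom_comm ((LinearEquiv.det (R := F) (M := V)).comp (O Q).subtype) hE hO
      rw [e1, map_mul, map_pow, map_pow, MonoidHom.comp_apply, MonoidHom.comp_apply] at h3
      have h4 : LinearEquiv.det ra = -1 := det_refl ha
      have h5 : LinearEquiv.det rb = -1 := det_refl hb
      change LinearEquiv.det ra ^ i * LinearEquiv.det rb ^ j = 1 at h3
      rw [h4, h5, ← pow_add] at h3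
      exact h3
    have hie : Even i := by
      rcases Nat.even_or_odd i with h | h
      · exact h
      · rw [h.neg_one_pow] at hi
        exact absurd hi (by decide)
    have hije : Even (i + j) := by
      rcases Nat.even_or_odd (i + j) with h | h
      · exact h
      · rw [h.neg_one_pow] at hj
        exact absurd hj (Cfsg.Agent.ClassicalGeometry.OmegaIndex.neg_one_ne_one_units h2)
    have hje : Even j := (Nat.even_add.1 hije).1 hie
    have hg1 : clsU (⟨g, hgS⟩ : StU Q U) = 1 := by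
      rw [hij]
      obtain ⟨i', rfl⟩ := hie
      obtain ⟨j', rfl⟩ := hje
      have hα2 : α * α = 1 := clsU_refl_sq ha haU
      have hβ2 : β * β = 1 := clsU_refl_sq hb hbU
      rw [← two_mul, ← two_mul, pow_mul, pow_mul, pow_two, pow_two, hα2, hβ2, one_pow, one_pow, mul_one]
    exact clsU_eq_one.1 hg1

end fin

end Cfsg.Agent.H826.RgD
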