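import Cfsg.Agent.H826.RgD.GenU
import Cfsg.Agent.H193.QuadEmb
import Cfsg.Agent.H955.QSpace
import Cfsg.Agent.H386.Rg.D2

/-!
# S3691, F-D+2: anisotropic planes (helper826)

* `nondeg_of_aniso` : an anisotropic plane over a finite field is nondegenerate
* `exists_iso_pair` : every anisotropic plane has a basis with the Gram data of a given anisotropic pair
* `trans_aniso` : `E Q` is transitive on the anisotropic pairs with given Gram data (`dim V ≥ 6`)
* `stab_plane` : the pointwise stabiliser of an anisotropic plane `P` in `E Q` is `SgU Q P^⊥` (`dim V ≥ 7`)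
-/

set_option autoImplicit false
set_option linter.unusedSectionVars false

namespace Cfsg.Agent.H826.RgD

open QuadraticMap Module
open Cfsg.Agent.LieClassical.OrthCore Cfsg.Agent.LieClassical.OrthTrans
open Cfsg.Agent.LieClassical.OrthFinite (good_of_finite exists_sing_perp)
open Cfsg.Agent.H826.Rg
open Cfsg.Agent.H955 (res perp mem_perp mem_perp' nondeg_res_iff nondeg_perp finrank_perp perp_perp)
open Cfsg.Agent.H386.Rg (Aniso)

variable {F V : Type*} [Field F] [AddCommGroup V] [Module F V] {Q : QuadraticForm F V}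

theorem Q_lin (x y : V) (a b : F) :
    Q (a • x + b • y) = a * a * Q x + b * b * Q y + a * b * polar Q x y := by
  rw [Q_add, QuadraticMap.map_smul, QuadraticMap.map_smul, polar_smul_left, polar_smul_right]
  simp only [smul_eq_mul]
  ring

section fin

variable [Finite F]

/-- an anisotropic pair has `polar ≠ 0` in characteristic two -/
theorem polar_ne_of_aniso {u w : V} (h : Aniso Q u w) (h2 : (2 : F) = 0) : polar Q u w ≠ 0 := by
  intro h0
  obtain ⟨c, hc⟩ := Cfsg.Agent.ClassicalGeometry.OrthDickson.exists_sq_of_two h2 (Q u * (Q w)⁻¹)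
  have hw : Q w ≠ 0 := by
    intro hw
    exact one_ne_zero (h 0 1 (by rw [zero_smul, one_smul, zero_add, hw])).2
  have h1 : Q ((1 : F) • u + c • w) = 0 := by
    rw [Q_lin, h0, hc, mul_assoc (Q u), inv_mul_cancel₀ hw]
    have : (1 : F) * 1 * Q u + Q u * 1 + 1 * c * 0 = 2 * Q u := by ring
    rw [this, h2, zero_mul]
  exact one_ne_zero (h 1 c h1).1

/-- an anisotropic plane is nondegenerate -/
theorem nondeg_of_aniso {P : Submodule F V} (hP : finrank F P = 2) (ha : ∀ x ∈ P, Q x = 0 → x = 0) : Nondeg (res Q P) := by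
  rw [nondeg_res_iff]
  intro x hx hxy
  by_cases h2 : (2 : F) = 0
  · by_contra hx0
    obtain ⟨y, hy, hyx⟩ : ∃ y ∈ P, y ∉ F ∙ x := by
      by_contra hcon
      push Not at hcon
      have : Module.Finite F P := Module.finite_of_finrank_pos (by omega)
      have h1 : P ≤ F ∙ x := hcon
      have h3 := Submodule.finrank_mono h1
      rw [hP, finrank_span_singleton hx0] at h3
      omega
    have hani : Aniso Q x y := by
      intro a b hab
      have h1 := ha _ (P.add_mem (P.smul_mem a hx) (P.smul_mem b hy)) hab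
      have hb : b = 0 := by
        by_contra hb
        apply hyx
        rw [Submodule.mem_span_singleton]
        refine ⟨-(b⁻¹ * a), ?_⟩
        have h3 : b • y = -(a • x) := by rw [eq_neg_iff_add_eq_zero, add_comm]; exact h1
        have h4 : y = b⁻¹ • (b • y) := by rw [smul_smul, inv_mul_cancel₀ hb, one_smul]
        rw [h4, h3, smul_neg, smul_smul, neg_smul]
      rw [hb, zero_smul, add_zero] at h1
      exact ⟨(smul_eq_zero.1 h1).resolve_right hx0, hb⟩
    exact polar_ne_of_aniso hani h2 (hxy y hy)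
  · apply ha x hx
    have h1 := hxy x hx
    rw [polar_self'] at h1
    exact (mul_eq_zero.1 h1).resolve_left h2

/-- the span of an anisotropic pair -/
theorem span_pair_aniso {u w : V} (h : Aniso Q u w) : finrank F (Submodule.span F {u, w}) = 2 ∧
    ∀ x ∈ Submodule.span F {u, w}, Q x = 0 → x = 0 := by
  have hli : LinearIndependent F ![u, w] := by
    rw [LinearIndependent.pair_iff]
    intro s t hst
    exact h s t (by rw [hst, QuadraticMap.map_zero])
  refine ⟨?_, ?_⟩
  · have h1 := finrank_span_eq_card hli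
    rw [Matrix.range_cons_cons_empty, Fintype.card_fin] at h1
    exact h1
  · intro x hx hQ
    obtain ⟨a, b, rfl⟩ := Submodule.mem_span_pair.1 hx
    obtain ⟨rfl, rfl⟩ := h a b hQ
    rw [zero_smul, zero_smul, add_zero]

/-- a basis of `P` with the Gram data of `(u, w)` -/
theorem exists_iso_pair {P : Submodule F V} (hP : finrank F P = 2) (ha : ∀ x ∈ P, Q x = 0 → x = 0) {u w : V} (h : Aniso Q u w) :
    ∃ u' w', P = Submodule.span F {u', w'} ∧ Q u' = Q u ∧ Q w' = Q w ∧ polar Q u' w' = polar Q u w := by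
  have hPf : Module.Finite F P := Module.finite_of_finrank_pos (by omega)
  -- a basis of `P`
  obtain ⟨b⟩ : Nonempty (Basis (Fin 2) F P) := ⟨Module.finBasisOfFinrankEq F P hP⟩
  set u0 : V := ((b 0 : P) : V) with hu0
  set w0 : V := ((b 1 : P) : V) with hw0
  have hmem : ∀ x y : F, x • u0 + y • w0 ∈ P := fun x y => P.add_mem (P.smul_mem _ (b 0).2) (P.smul_mem _ (b 1).2)
  have h0 : Aniso Q u0 w0 := by
    intro x y hxy
    have h1 := ha _ (hmem x y) hxy
    have h2 : x • b 0 + y • b 1 = 0 := Subtype.ext h1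
    have h3 := LinearIndependent.pair_iff.1 (show LinearIndependent F ![b 0, b 1] by
      have := b.linearIndependent
      have e : (⇑b : Fin 2 → P) = ![b 0, b 1] := by
        funext i; fin_cases i <;> rfl
      rwa [e] at this) x y h2
    exact h3
  have hα : Q u ≠ 0 := by
    intro hu
    exact one_ne_zero (h 1 0 (by rw [zero_smul, one_smul, add_zero, hu])).1
  have hα0 : Q u0 ≠ 0 := by
    intro hu
    exact one_ne_zero (h0 1 0 (by rw [zero_smul, one_smul, add_zero, hu])).1
  have hA : Cfsg.Agent.GenOrth.Aniso (polar Q u w / Q u) (Q w / Q u) := by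
    intro x y hxy
    apply h x y
    rw [Q_lin]
    have : x * x * Q u + y * y * Q w + x * y * polar Q u w =
        Q u * (x ^ 2 + polar Q u w / Q u * x * y + Q w / Q u * y ^ 2) := by
      field_simp
      ring
    rw [this, hxy, mul_zero]
  have hA0 : Cfsg.Agent.GenOrth.Aniso (polar Q u0 w0 / Q u0) (Q w0 / Q u0) := by
    intro x y hxy
    apply h0 x y
    rw [Q_lin]
    have : x * x * Q u0 + y * y * Q w0 + x * y * polar Q u0 w0 =
        Q u0 * (x ^ 2 + polar Q u0 w0 / Q u0 * x * y + Q w0 / Q u0 * y ^ 2) := by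
      field_simp
      ring
    rw [this, hxy, mul_zero]
  obtain ⟨e, he⟩ := Cfsg.Agent.H193.QuadEmb.aniso_iso hA hA0 (c := Q u / Q u0) (div_ne_zero hα hα0)
  have key : ∀ z : Fin 2 → F, Q (e z 0 • u0 + e z 1 • w0) = Q (z 0 • u + z 1 • w) := by
    intro z
    rw [Q_lin, Q_lin]
    have h1 := he z
    have h2 : e z 0 * e z 0 * Q u0 + e z 1 * e z 1 * Q w0 + e z 0 * e z 1 * polar Q u0 w0 =
        Q u0 * (e z 0 ^ 2 + polar Q u0 w0 / Q u0 * e z 0 * e z 1 + Q w0 / Q u0 * e z 1 ^ 2) := by
      field_simp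
      ring
    have h3 : z 0 * z 0 * Q u + z 1 * z 1 * Q w + z 0 * z 1 * polar Q u w =
        Q u * (z 0 ^ 2 + polar Q u w / Q u * z 0 * z 1 + Q w / Q u * z 1 ^ 2) := by
      field_simp
      ring
    rw [h2, h3, h1, ← mul_assoc, mul_div_cancel₀ _ hα0]
  set u' := e ![1, 0] 0 • u0 + e ![1, 0] 1 • w0 with hu'
  set w' := e ![0, 1] 0 • u0 + e ![0, 1] 1 • w0 with hw'
  have k1 : Q u' = Q u := by
    have := key ![1, 0]
    simpa using this
  have k2 : Q w' = Q w := by
    have := key ![0, 1]
    simpa using this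
  have k3 : polar Q u' w' = polar Q u w := by
    have h1 := key ![1, 1]
    have h2 : e ![1, 1] = e ![1, 0] + e ![0, 1] := by
      rw [← map_add]
      congr 1
      funext i; fin_cases i <;> simp
    have h3 : e ![1, 1] 0 • u0 + e ![1, 1] 1 • w0 = u' + w' := by
      rw [h2, hu', hw']
      simp only [Pi.add_apply]
      module
    rw [h3] at h1
    have h4 : Q (u' + w') = Q (u + w) := by simpa using h1
    rw [Q_add u' w', Q_add u w, k1, k2] at h4
    exact add_left_cancel h4
  refine ⟨u', w', ?_, k1, k2, k3⟩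
  have hle : Submodule.span F {u', w'} ≤ P := by
    rw [Submodule.span_le]
    rintro _ (rfl | rfl)
    · exact hmem _ _
    · exact hmem _ _
  have hani' : Aniso Q u' w' := by
    intro x y hxy
    apply h x y
    rw [Q_lin] at hxy ⊢
    rw [k1, k2, k3] at hxy
    exact hxy
  exact (Submodule.eq_of_le_of_finrank_eq hle (by rw [(span_pair_aniso hani').1, hP])).symm

variable [FiniteDimensional F V]

/-- a vector of given norm orthogonal to `u`, `w` -/
theorem exists_perp_value (hQ : Nondeg Q) (hd : 6 ≤ finrank F V) {u w : V} (h : Aniso Q u w) {c : F} :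
    ∃ b, polar Q b u = 0 ∧ polar Q b w = 0 ∧ Q b = c := by
  obtain ⟨h1, h2⟩ := span_pair_aniso h
  set P := Submodule.span F {u, w} with hP
  have hnd := nondeg_perp hQ (nondeg_of_aniso h1 h2)
  have hfr := finrank_perp hQ P
  rw [h1] at hfr
  obtain ⟨x, hx0, hx, hxx⟩ := exists_sing_perp (Q := Q) ![u, w] (by omega)
  have hxP : x ∈ perp Q P := by
    rw [mem_perp]
    intro y hy
    obtain ⟨a, b, rfl⟩ := Submodule.mem_span_pair.1 hy
    have e1 : polar Q u x = 0 := hxx 0
    have e2 : polar Q w x = 0 := hxx 1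
    rw [polar_add_left, polar_smul_left, polar_smul_left, e1, e2]
    simp
  -- a hyperbolic partner in `P^⊥`
  have hx' : (⟨x, hxP⟩ : perp Q P) ≠ 0 := fun h0 => hx0 (congrArg Subtype.val h0)
  obtain ⟨y, hy⟩ := exists_hyp hnd (show (res Q (perp Q P)) ⟨x, hxP⟩ = 0 from hx) hx'
  have hy1 : Q (y : V) = 0 := hy.right
  have hy2 : polar Q x (y : V) = 1 := hy.pair
  have hmem : x + c • (y : V) ∈ perp Q P := (perp Q P).add_mem hxP ((perp Q P).smul_mem _ y.2)
  have hu : u ∈ P := Submodule.subset_span (by simp)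
  have hw : w ∈ P := Submodule.subset_span (by simp)
  refine ⟨x + c • (y : V), mem_perp'.1 hmem u hu, mem_perp'.1 hmem w hw, ?_⟩
  rw [Q_add, QuadraticMap.map_smul, hx, hy1, polar_smul_right, hy2]
  simp

/-- the product of two reflections of vectors of the same norm lies in `E Q` -/
theorem refl_mul_refl_mem (hG : Good Q) {a b : V} (ha : Q a ≠ 0) (hb : Q b ≠ 0) (h : Q a = Q b) :
    refl Q a ha * refl Q b hb ∈ E Q := by
  have ha0 : a ≠ 0 := by
    rintro rfl
    exact ha (QuadraticMap.map_zero Q)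
  have hb0 : b ≠ 0 := by
    rintro rfl
    exact hb (QuadraticMap.map_zero Q)
  obtain ⟨s, hs, hsb⟩ := hG.trans_norm hb0 ha0 h.symm
  subst hsb
  have h1 : refl Q (s b) ha = s * refl Q b hb * s⁻¹ := (refl_conj (E_le_O hs) hb ha).symm
  have h2 : refl Q (s b) ha * refl Q b hb = s * (refl Q b hb * s⁻¹ * (refl Q b hb)⁻¹) := by
    have h3 : (refl Q b hb)⁻¹ = refl Q b hb := inv_eq_of_mul_eq_one_left (refl_mul_self hb)
    rw [h3, h1]
    group
  rw [h2]
  refine (E Q).mul_mem hs ?_
  exact conj_mem_E (refl_mem_O hb) ((E Q).inv_mem hs)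

/-- **transitivity on anisotropic pairs** -/
theorem trans_aniso (hQ : Nondeg Q) (hd : 6 ≤ finrank F V) {u w u' w' : V} (h : Aniso Q u w) (hu : Q u = Q u') (hw : Q w = Q w')
    (huw : polar Q u w = polar Q u' w') : ∃ g ∈ E Q, g u = u' ∧ g w = w' := by
  have hG : Good Q := good_of_finite hQ (by omega)
  have hα : Q u ≠ 0 := by
    intro hu
    exact one_ne_zero (h 1 0 (by rw [zero_smul, one_smul, add_zero, hu])).1
  have hu0 : u ≠ 0 := by
    rintro rfl
    exact hα (QuadraticMap.map_zero Q)
  have hu0' : u' ≠ 0 := by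
    rintro rfl
    rw [QuadraticMap.map_zero] at hu
    exact hα hu
  obtain ⟨g, hg, hgu⟩ := hG.trans_norm hu0 hu0' hu
  -- now `(u', g w)` and `(u', w')`
  have hgO := E_le_O hg
  have h1 : Q (g w) = Q w' := by rw [mem_O.1 hgO, hw]
  have h2 : polar Q u' (g w) = polar Q u' w' := by
    rw [← huw, ← hgu, polar_map hgO]
  have h' : Aniso Q u' w' := by
    intro x y hxy
    apply h x y
    rw [Q_lin] at hxy ⊢
    rw [hu, hw, huw]
    exact hxy
  have hg' : Aniso Q u' (g w) := by
    intro x y hxy
    apply h x y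
    rw [Q_lin] at hxy ⊢
    rw [hu, ← mem_O.1 hgO w, huw, ← h2]
    exact hxy
  set z := g w with hz
  have hdu : polar Q (z - w') u' = 0 := by
    rw [polar_sub_left, polar_comm Q z, h2, polar_comm Q w', sub_self]
  have huz : polar Q u' (z - w') = 0 := by rw [polar_comm]; exact hdu
  by_cases hd0 : Q (z - w') = 0
  · by_cases hz0 : z - w' = 0
    · exact ⟨g, hg, hgu, sub_eq_zero.1 hz0⟩
    -- a Siegel transformation
    have hzd : polar Q (z - w') z = 0 := by
      have e1 := Q_add (Q := Q) z (-(z - w'))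
      have e2 : z + -(z - w') = w' := by abel
      rw [e2, QuadraticMap.map_neg, hd0, polar_neg_right, h1] at e1
      rw [polar_comm]
      linear_combination e1
    have hsep : z ∉ Submodule.span F {u', z - w'} := by
      intro hmem
      obtain ⟨a, b, hab⟩ := Submodule.mem_span_pair.1 hmem
      by_cases hb : b = 0
      · rw [hb, zero_smul, add_zero] at hab
        have := hg' a (-1) (by rw [hab, neg_smul, one_smul, add_neg_cancel, QuadraticMap.map_zero])
        exact one_ne_zero (neg_eq_zero.1 this.2)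
      · apply hz0
        have e1 : b • (z - w') = z - a • u' := eq_sub_of_add_eq (by rw [add_comm]; exact hab)
        have e2 : Q ((-a) • u' + (1 : F) • z) = 0 := by
          have e3 : (-a) • u' + (1 : F) • z = b • (z - w') := by rw [e1]; module
          rw [e3, QuadraticMap.map_smul, hd0, smul_zero]
        exact absurd (hg' _ _ e2).2 one_ne_zero
    obtain ⟨x, hx, hxz⟩ := exists_sep hQ hsep
    have hxu : polar Q x u' = 0 := hx u' (Submodule.subset_span (by simp))
    have hxd : polar Q x (z - w') = 0 := hx _ (Submodule.subset_span (by simp))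
    have hdx : polar Q (z - w') x = 0 := by rw [polar_comm]; exact hxd
    refine ⟨siegel Q (z - w') x hd0 hdx * g, (E Q).mul_mem (siegel_mem_E _ _) hg, ?_, ?_⟩
    · show siegel Q (z - w') x hd0 hdx (g u) = u'
      rw [hgu, siegel_apply, hdu, hxu]
      simp
    · show siegel Q (z - w') x hd0 hdx z = w'
      rw [siegel_apply, hzd, hxz]
      simp
  · -- a reflection, corrected by a reflection of `⟨u', w'⟩^⊥`
    obtain ⟨b, hbu, hbw, hbQ⟩ := exists_perp_value hQ hd h' (c := Q (z - w'))
    have hb : Q b ≠ 0 := by rw [hbQ]; exact hd0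
    refine ⟨refl Q b hb * refl Q (z - w') hd0 * g, (E Q).mul_mem (refl_mul_refl_mem hG hb hd0 hbQ) hg, ?_, ?_⟩
    · show refl Q b hb (refl Q (z - w') hd0 (g u)) = u'
      rw [hgu, refl_apply (v := z - w') hd0, hdu, mul_zero, zero_smul, sub_zero, refl_apply, hbu, mul_zero, zero_smul, sub_zero]
    · show refl Q b hb (refl Q (z - w') hd0 z) = w'
      rw [refl_sub_apply h1.symm hd0, refl_apply, hbw, mul_zero, zero_smul, sub_zero]

/-- **the pointwise stabiliser of an anisotropic plane** -/
theorem stab_plane (hQ : Nondeg Q) (hd : 7 ≤ finrank F V) {P : Submodule F V} (hP : finrank F P = 2)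
    (ha : ∀ x ∈ P, Q x = 0 → x = 0) {g : V ≃ₗ[F] V} (hg : g ∈ E Q) (hgP : ∀ x ∈ P, g x = x) : g ∈ SgU Q (perp Q P) := by
  have hfr := finrank_perp hQ P
  rw [hP] at hfr
  refine mem_SgU hQ (nondeg_perp hQ (nondeg_of_aniso hP ha)) (by omega) hg fun v => ?_
  rw [mem_perp]
  intro x hx
  rw [polar_sub_right]
  nth_rewrite 1 [← hgP x hx]
  rw [polar_map (E_le_O hg), sub_self]

end fin

end Cfsg.Agent.H826.RgD
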